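import Mathlib
import Cfsg.Agent.Lib.Helper78.TN.Defs

/-!
# S4414 team project, package [P-DEC]: component maps of a weight system.
-/

set_option autoImplicit false

namespace Cfsg.Agent.Lib.Helper63.TN

universe u v w x

theorem lemDec : Cfsg.Agent.Lib.Helper78.TN.LemDec.{u, v, w, x} := by
  intro F _ S _ V _ _ R Q ι D
  classical
  have hint : DirectSum.IsInternal D.W :=
    DirectSum.isInternal_submodule_of_iSupIndep_of_iSup_eq_top D.indep D.top
  letI dec : DirectSum.Decomposition D.W := hint.chooseDecomposition
  let c : ι → (V →ₗ[F] V) := fun i =>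
    { toFun := fun m => ((DirectSum.decompose D.W m) i : V)
      map_add' := by
        intro a b
        simp [DirectSum.decompose_add]
      map_smul' := by
        intro r a
        rw [DirectSum.decompose_smul]
        rfl }
  have hc : ∀ i m, c i m = ((DirectSum.decompose D.W m) i : V) := fun _ _ => rfl
  have h1 : ∀ i m, c i m ∈ D.W i := by
    intro i m
    rw [hc]
    exact ((DirectSum.decompose D.W m) i).2
  have h2 : ∀ i m, m ∈ D.W i → c i m = m := by
    intro i m hm
    rw [hc]
    exact DirectSum.decompose_of_mem_same D.W hm
  have h3 : ∀ i j m, m ∈ D.W i → i ≠ j → c j m = 0 := by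
    intro i j m hm hij
    rw [hc]
    exact DirectSum.decompose_of_mem_ne D.W hm hij
  have h4 : ∀ m, (∀ i, c i m = 0) → m = 0 := by
    intro m hm
    have hz : DirectSum.decompose D.W m = 0 := by
      ext i
      have := hm i
      rw [hc] at this
      simpa using this
    have h0 : DirectSum.decompose D.W m = DirectSum.decompose D.W 0 := by
      rw [hz, DirectSum.decompose_zero]
    exact (DirectSum.decompose D.W).injective h0
  have hinv : ∀ (g : S) (j : ι), D.act g (D.act g⁻¹ j) = j := by
    intro g j
    rw [← D.act_mul, mul_inv_cancel, D.act_one]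
  have hinv' : ∀ (g : S) (j : ι), D.act g⁻¹ (D.act g j) = j := by
    intro g j
    rw [← D.act_mul, inv_mul_cancel, D.act_one]
  have h5' : ∀ (g : S) (m : V), ∀ j, c j (R g m) = R g (c (D.act g⁻¹ j) m) := by
    intro g m
    induction m using DirectSum.Decomposition.inductionOn D.W with
    | zero =>
      intro j
      simp
    | @homogeneous i m =>
      intro j
      have hm : (m : V) ∈ D.W i := m.2
      have hgm : R g (m : V) ∈ D.W (D.act g i) := D.map g i _ hm
      by_cases hj : D.act g i = j
      · subst hj
        rw [h2 _ _ hgm, hinv', h2 _ _ hm]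
      · rw [h3 _ _ _ hgm hj]
        have hne : i ≠ D.act g⁻¹ j := by
          intro h
          apply hj
          rw [h, hinv]
        rw [h3 _ _ _ hm hne, map_zero]
    | add m m' hm hm' =>
      intro j
      rw [map_add, map_add, map_add, map_add, hm j, hm' j]
  refine ⟨c, h1, h2, h3, h4, ?_⟩
  intro g i m
  rw [h5' g m (D.act g i), hinv']

end Cfsg.Agent.Lib.Helper63.TN
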