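import Mathlib
import Cfsg.Agent.Lib.Helper78.TN.Defs

/-!
# S4414 team project, package [P-FV]: a finite 2-group acting on a nonzero invariant subspace in
characteristic 2 has a nonzero fixed vector (the field may be infinite).
-/

set_option autoImplicit false

namespace Cfsg.Agent.Lib.Helper63.TN

universe u v w

theorem lemFV : Cfsg.Agent.Lib.Helper78.TN.LemFV.{u, v, w} := by
  intro F _ _ S _ V _ _ R T _ hT W' hW' hinv
  classical
  have h2 : ∀ v : V, (2 : ℕ) • v = 0 := by
    intro v
    rw [← Nat.cast_smul_eq_nsmul F 2 v, CharP.cast_eq_zero F 2, zero_smul]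
  obtain ⟨w, hwW, hw0⟩ := (Submodule.ne_bot_iff W').mp hW'
  let gen : Set V := Set.range (fun t : T => R (t : S) w)
  have hgenfin : gen.Finite := Set.finite_range _
  let A : AddSubgroup V := AddSubgroup.closure gen
  have hAW : A ≤ W'.toAddSubgroup := by
    rw [AddSubgroup.closure_le]
    rintro _ ⟨t, rfl⟩
    exact hinv t t.2 w hwW
  have hwA : w ∈ A := by
    apply AddSubgroup.subset_closure
    exact ⟨1, by simp⟩
  have hRA : ∀ t ∈ T, ∀ a ∈ A, R t a ∈ A := by
    intro t ht a ha
    induction ha using AddSubgroup.closure_induction with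
    | mem x hx =>
      obtain ⟨s, rfl⟩ := hx
      apply AddSubgroup.subset_closure
      refine ⟨⟨t, ht⟩ * s, ?_⟩
      simp [map_mul]
    | zero => rw [map_zero]; exact A.zero_mem
    | add x y _ _ hx hy => rw [map_add]; exact A.add_mem hx hy
    | neg x _ hx => rw [map_neg]; exact A.neg_mem hx
  haveI : Finite gen := hgenfin.to_subtype
  haveI : AddGroup.FG A := AddGroup.closure_finite_fg gen
  haveI : Finite A := by
    apply AddCommGroup.finite_of_fg_torsion
    intro a
    rw [isOfFinAddOrder_iff_nsmul_eq_zero]
    refine ⟨2, by norm_num, ?_⟩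
    ext
    simpa using h2 a.1
  letI act : MulAction T A :=
    { smul := fun t a => ⟨R (t : S) a.1, hRA t t.2 a.1 a.2⟩
      one_smul := by
        intro a
        apply Subtype.ext
        change R ((1 : T) : S) a.1 = a.1
        simp
      mul_smul := by
        intro s t a
        apply Subtype.ext
        change R ((s * t : T) : S) a.1 = R (s : S) (R (t : S) a.1)
        simp [map_mul] }
  have hsmul : ∀ (t : T) (a : A), ((t • a : A) : V) = R (t : S) a.1 := fun _ _ => rfl
  haveI : Fact (Nat.Prime 2) := ⟨Nat.prime_two⟩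
  have hdvd : 2 ∣ Nat.card A := by
    have hord : addOrderOf (⟨w, hwA⟩ : A) = 2 := by
      apply addOrderOf_eq_prime
      · ext
        simpa using h2 w
      · intro h0
        apply hw0
        exact congrArg Subtype.val h0
    rw [← hord]
    exact addOrderOf_dvd_natCard _
  have h0fix : (0 : A) ∈ MulAction.fixedPoints T A := by
    intro t
    apply Subtype.ext
    rw [hsmul]
    simp
  obtain ⟨b, hbfix, hb0⟩ :=
    hT.exists_fixed_point_of_prime_dvd_card_of_fixed_point A hdvd h0fix
  refine ⟨b.1, hAW b.2, ?_, ?_⟩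
  · intro h0
    apply hb0
    apply Subtype.ext
    exact h0.symm
  · rw [Cfsg.Agent.Lib.Helper78.TN.mem_fixedSub]
    intro t ht
    have := hbfix ⟨t, ht⟩
    have h3 := congrArg Subtype.val this
    rw [hsmul] at h3
    exact h3

end Cfsg.Agent.Lib.Helper63.TN
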